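import Groth.Agent.CycB.PushStalk
import Groth.Agent.Ega4dB.FiberDepth
import Groth.Prelude.Def_Wider
import Groth.Prelude.Def_FlatMod2

/-!
# Depth of the stalks of a direct image along a closed immersion

Author: helper95
-/

set_option autoImplicit false
universe u

open CategoryTheory CategoryTheory.Limits AlgebraicGeometry TopologicalSpace

namespace Groth.Agent.Sga2lef.H95.DepthPush

open Groth.Agent.CycB.PushStalk Groth.Agent.CycB.StalkExact

variable {X Z : Scheme.{u}}

/-- The depth of the stalk of `i_* N` at `i z` is the depth of the stalk of `N` at `z`. -/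
theorem depth_push (i : Z ⟶ X) [IsClosedImmersion i] (N : Z.Modules) (z : Z) :
    LocCoh.depth (X.presheaf.stalk (i z))
      (((Scheme.Modules.pushforward i).obj N).presheaf.stalk (i z)) =
      LocCoh.depth (Z.presheaf.stalk z) (N.presheaf.stalk z) := by
  have hb := pushStalk_bijective i i.isClosedEmbedding.isInducing N z
  exact Groth.Agent.Ega4dB.FiberDepth.depth_eq_of_semilinear (i.stalkMap z).hom
    (i.stalkMap_surjective z)
    (AddEquiv.ofBijective (pushStalk i N z).toAddMonoidHom hb)
    (fun r n => (pushStalk i N z).map_smulₛₗ r n)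

theorem depth_eq_top_of_subsingleton {R : Type*} [CommRing R] [IsLocalRing R] (M : Type*)
    [AddCommGroup M] [Module R M] [Subsingleton M] : LocCoh.depth R M = ⊤ := by
  unfold LocCoh.depth LocCoh.idealDepth
  rw [if_pos (Subsingleton.elim _ _)]

/-- A bound for the depth at the closed points of `Z` gives one for `i_* N` at the closed points of `X`. -/
theorem le_depth_push (i : Z ⟶ X) [IsClosedImmersion i] (N : Z.Modules) (n : ℕ∞)
    (h : ∀ z : Z, IsClosed ({z} : Set Z) → n ≤ LocCoh.depth (Z.presheaf.stalk z) (N.presheaf.stalk z))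
    (x : X) (hx : IsClosed ({x} : Set X)) : n ≤ LocCoh.depth (X.presheaf.stalk x)
      (((Scheme.Modules.pushforward i).obj N).presheaf.stalk x) := by
  by_cases hr : x ∈ Set.range i
  · obtain ⟨z, rfl⟩ := hr
    rw [depth_push]
    refine h z ?_
    have h1 : ({z} : Set Z) = i ⁻¹' {i z} := by
      ext y
      simp only [Set.mem_singleton_iff, Set.mem_preimage]
      exact ⟨fun h => h ▸ rfl, fun h => i.isClosedEmbedding.injective h⟩
    rw [h1]
    exact hx.preimage i.continuous
  · have h1 : Subsingleton (((Scheme.Modules.pushforward i).obj N).presheaf.stalk x) := by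
      refine subsingleton_stalk_push i N x ?_
      rwa [i.isClosedEmbedding.isClosed_range.closure_eq]
    rw [depth_eq_top_of_subsingleton]
    exact le_top

end Groth.Agent.Sga2lef.H95.DepthPush
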