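import Groth.Agent.FormalB.ModPowAff
import Groth.Agent.FormalB.KQuot
import Groth.Agent.FormalB.SysSect
import Groth.Agent.Divis.IdealComap
import Mathlib.AlgebraicGeometry.IdealSheaf.Functorial

/-!
# The ideal sheaf `I O_X` for an ideal `I` of the base ring

Author: helper95
-/

set_option autoImplicit false
universe u

open CategoryTheory CategoryTheory.Limits AlgebraicGeometry Opposite

namespace Groth.Agent.Sga2lef.H95.IdealBase

open Groth.Agent.FormalB.ModPow

variable {A : Type u} [CommRing A] {X : Scheme.{u}}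

/-- The ideal sheaf `I O_X` on a scheme `f : X ⟶ Spec A`. -/
noncomputable abbrev idl (I : Ideal A) (f : X ⟶ Spec (CommRingCat.of A)) : X.IdealSheafData :=
  (Spec.map (CommRingCat.ofHom (Ideal.Quotient.mk I))).ker.comap f

/-- The kernel of a ring map in terms of an isomorphism of the sources. -/
theorem mem_map_equiv_iff {B C D : Type*} [CommRing B] [CommRing C] [CommRing D] (e : B →+* C)
    (he : Function.Bijective e) (I : Ideal B) (g : C →+* D) (j : (B ⧸ I) →+* D)
    (hj : Function.Injective j) (h : g.comp e = j.comp (Ideal.Quotient.mk I)) :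
    RingHom.ker g = I.map e := by
  ext x
  obtain ⟨a, rfl⟩ := he.2 x
  have h1 : g (e a) = j (Ideal.Quotient.mk I a) := congrArg (fun k => k a) h
  rw [RingHom.mem_ker, h1, map_eq_zero_iff j hj, Ideal.Quotient.eq_zero_iff_mem]
  constructor
  · exact fun h => Ideal.mem_map_of_mem _ h
  · intro h
    obtain ⟨b, hb, hab⟩ := (Ideal.mem_map_iff_of_surjective e he.2).1 h
    rwa [← he.1 hab]

theorem ker_ideal_top (I : Ideal A) :
    (Spec.map (CommRingCat.ofHom (Ideal.Quotient.mk I))).ker.ideal ⟨⊤, isAffineOpen_top _⟩ =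
      I.map (Scheme.ΓSpecIso (CommRingCat.of A)).inv.hom := by
  rw [Scheme.Hom.ker_apply]
  have hφ := Scheme.ΓSpecIso_inv_naturality (CommRingCat.ofHom (Ideal.Quotient.mk I))
  exact mem_map_equiv_iff _
    (ConcreteCategory.bijective_of_isIso (Scheme.ΓSpecIso (CommRingCat.of A)).inv) I _
    (Scheme.ΓSpecIso (CommRingCat.of (A ⧸ I))).inv.hom
    (ConcreteCategory.bijective_of_isIso (Scheme.ΓSpecIso (CommRingCat.of (A ⧸ I))).inv).1
    (congrArg (fun k => k.hom) hφ).symm

theorem idl_ideal (I : Ideal A) (f : X ⟶ Spec (CommRingCat.of A)) (V : X.affineOpens) :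
    (idl I f).ideal V = I.map ((resΓ X V.1).comp (Coh.toGlobal f)) := by
  rw [Groth.Agent.Divis.IdealComap.ideal_comap _ f ⟨⊤, isAffineOpen_top _⟩ V le_top, ker_ideal_top,
    Ideal.map_map]
  congr 1

section Compare

open Groth.Agent.FormalB.ModPowAff Groth.Agent.FormalB.KQuot Groth.Agent.FormalB.SysSect

variable [X.Over (Spec (CommRingCat.of A))] {J : Ideal A} {K : X.IdealSheafData}

theorem pow_ideal (hK : ∀ V : X.affineOpens, K.ideal V = J.map (toΓ A X V.1)) (n : ℕ)
    (V : X.affineOpens) : (K ^ n).ideal V = (J ^ n).map (toΓ A X V.1) := by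
  rw [Scheme.IdealSheafData.ideal_pow, Pi.pow_apply, hK, Ideal.map_pow]

theorem killedBy_iff (hK : ∀ V : X.affineOpens, K.ideal V = J.map (toΓ A X V.1)) (M : X.Modules) :
    Formal.KilledBy J M ↔ ClSub.KilledByIdeal K M := by
  constructor
  · intro h
    rw [killedByIdeal_iff]
    intro V a ha m
    rw [hK] at ha
    refine Submodule.span_induction (p := fun a _ => a • m = 0) ?_ ?_ ?_ ?_ ha
    · rintro _ ⟨b, hb, rfl⟩
      rw [← smulMod_app', h b hb]
      rfl
    · rw [zero_smul]
    · intro x y _ _ hx hy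
      rw [add_smul, hx, hy, add_zero]
    · intro c x _ hx
      rw [smul_eq_mul, mul_smul, hx, smul_zero]
  · intro h a ha
    apply hom_eq_zero_of_affine
    intro U hU m
    rw [smulMod_app']
    refine (killedByIdeal_iff.1 h) ⟨U, hU⟩ _ ?_ m
    rw [hK]
    exact Ideal.mem_map_of_mem _ ha

theorem isKQuot_of_isModPow (hK : ∀ V : X.affineOpens, K.ideal V = J.map (toΓ A X V.1))
    {M N : X.Modules} {p : M ⟶ N} (hp : IsModPow J p) : IsKQuot K p := by
  refine ⟨hp.epi, (killedBy_iff hK N).1 hp.killedBy, fun {Z} φ hZ => hp.desc φ fun a ha => ?_⟩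
  rw [smulMod_naturality, (killedBy_iff hK Z).2 hZ a ha, comp_zero]

theorem isModPow_of_isKQuot (hK : ∀ V : X.affineOpens, K.ideal V = J.map (toΓ A X V.1))
    {M N : X.Modules} {p : M ⟶ N} (hp : IsKQuot K p) : IsModPow J p := by
  refine ⟨hp.epi, fun a ha => ?_, fun {Z} φ hφ => ?_⟩
  · rw [smulMod_naturality, (killedBy_iff hK N).2 hp.killed a ha, comp_zero]
  · have h1 : Formal.KilledBy J (Limits.image φ) := by
      intro a ha
      rw [← cancel_epi (factorThruImage φ), ← cancel_mono (Limits.image.ι φ), ← smulMod_naturality,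
        Category.assoc, Limits.image.fac, hφ a ha, comp_zero, zero_comp]
    obtain ⟨ψ, hψ⟩ := hp.desc (factorThruImage φ) ((killedBy_iff hK _).1 h1)
    exact ⟨ψ ≫ Limits.image.ι φ, by rw [← Category.assoc, hψ, Limits.image.fac]⟩

end Compare

end Groth.Agent.Sga2lef.H95.IdealBase
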