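import Groth.Agent.Sga2lef.H95.RegExact
import Groth.Agent.PerfC.ClosedPush
import Groth.Agent.FormalB.TrKQuot
import Groth.Agent.Ega1.PullFormal

/-!
# Regularity of `t` on a module on a closed subscheme, in terms of its direct image

Author: helper95
-/

set_option autoImplicit false
universe u

open CategoryTheory CategoryTheory.Limits AlgebraicGeometry Opposite

namespace Groth.Agent.Sga2lef.H95.PushExact

open Groth.Agent.FormalB.ModPow Groth.Agent.Sga2lef.H95.RegExact

variable {A : Type u} [CommRing A] {X Z : Scheme.{u}} [X.Over (Spec (CommRingCat.of A))]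

/-- The pullback of the constant `a` to `Z`. -/
noncomputable abbrev cst (i : Z ⟶ X) (a : A) : Coh.Γtop Z :=
  i.appTop.hom (Coh.toGlobal (X ↘ Spec (CommRingCat.of A)) a)

theorem pushforward_cst (i : Z ⟶ X) (F : Z.Modules) (a : A) :
    (Scheme.Modules.pushforward i).map (Formal.smulModΓ F (cst i a)) =
      Formal.smulMod A ((Scheme.Modules.pushforward i).obj F) a :=
  Groth.Agent.Ega1.PullFormal.pushforward_smulModΓ i F _

theorem pushforward_cst_pow (i : Z ⟶ X) (F : Z.Modules) (a : A) (N : ℕ) :
    (Scheme.Modules.pushforward i).map (Formal.smulModΓ F (cst i a ^ N)) =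
      Formal.smulMod A ((Scheme.Modules.pushforward i).obj F) (a ^ N) := by
  have h : cst i a ^ N = cst i (a ^ N) :=
    (map_pow (i.appTop.hom.comp (Coh.toGlobal (X ↘ Spec (CommRingCat.of A)))) a N).symm
  rw [h, pushforward_cst]

/-- `ker t^N = im t` on `F` and `t^(N+1) = 0` give exactness of `(t^N, t)` on the direct image. -/
theorem exact_push (i : Z ⟶ X) [IsClosedImmersion i] (F : Z.Modules) (t : A) (N : ℕ)
    (h : kernelSubobject (Formal.smulModΓ F (cst i t ^ N)) =
      imageSubobject (Formal.smulModΓ F (cst i t)))
    (w : Formal.smulMod A ((Scheme.Modules.pushforward i).obj F) (t ^ N) ≫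
      Formal.smulMod A ((Scheme.Modules.pushforward i).obj F) t = 0) :
    (ShortComplex.mk _ _ w).Exact := by
  have hf := Groth.Agent.FormalB.TrKQuot.faithful_pushforward i
  have w0 : Formal.smulModΓ F (cst i t ^ N) ≫ Formal.smulModΓ F (cst i t) = 0 := by
    apply (Scheme.Modules.pushforward i).map_injective
    rw [Functor.map_comp, pushforward_cst, pushforward_cst_pow, w, Functor.map_zero]
  have h1 := exact_smulModΓ F (cst i t) N h w0
  have h2 : PreservesFiniteColimits (Scheme.Modules.pushforward i) :=
    Groth.Agent.PerfC.ClosedPush.preservesFiniteColimits i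
  have h3 := h1.map (Scheme.Modules.pushforward i)
  refine (ShortComplex.exact_iff_of_iso ?_).1 h3
  exact ShortComplex.isoMk (Iso.refl _) (Iso.refl _) (Iso.refl _)
    ((Category.id_comp _).trans ((pushforward_cst_pow i F t N).symm.trans (Category.comp_id _).symm))
    ((Category.id_comp _).trans ((pushforward_cst i F t).symm.trans (Category.comp_id _).symm))

end Groth.Agent.Sga2lef.H95.PushExact
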