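import Groth.Agent.FormalB.PrincTower
import Mathlib.CategoryTheory.Abelian.Refinements
import Mathlib.CategoryTheory.Subobject.Limits

/-!
# Regularity of a principal formal system

`F` an object of an abelian category, `s : ℕ → (F ⟶ F)` the powers of an endomorphism with `s (N + 1) = 0`.
If `ker s_N = im s_1` then `F --s_N--> F --s_1--> F` is exact.  For the terms of a formal system for a principal
ideal `(f)` this makes the maps `f : G_n → G_{n+1}` monomorphisms.

Author: helper95
-/

set_option autoImplicit false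
universe u v w

open CategoryTheory CategoryTheory.Limits AlgebraicGeometry Opposite

namespace Groth.Agent.Sga2lef.H95.RegExact

section Abelian

variable {C : Type u} [Category.{v} C] [Abelian C] {F : C}

/-- If `kernelSubobject a = imageSubobject b` then every `k` killed by `a` lifts along `b` after a refinement. -/
theorem exists_refinement_of_eq {a b : F ⟶ F} (h : kernelSubobject a = imageSubobject b) {Z : C} (k : Z ⟶ F)
    (hk : k ≫ a = 0) : ∃ (Z' : C) (π : Z' ⟶ Z) (_ : Epi π) (x : Z' ⟶ F), π ≫ k = x ≫ b := by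
  have h1 : (kernelSubobject a).Factors k := kernelSubobject_factors a k hk
  rw [h] at h1
  obtain ⟨l, hl⟩ : ∃ l : Z ⟶ (imageSubobject b : C), l ≫ (imageSubobject b).arrow = k :=
    ⟨_, Subobject.factorThru_arrow _ _ h1⟩
  obtain ⟨Z', π, hπ, x, hx⟩ := surjective_up_to_refinements_of_epi (factorThruImageSubobject b) l
  refine ⟨Z', π, hπ, x, ?_⟩
  rw [← hl, ← Category.assoc, hx, Category.assoc, imageSubobject_arrow_comp]

/-- `ker s_N = im s_1` implies exactness of `(s_N, s_1)`. -/
theorem exact_of_kernel_eq_image (s : ℕ → (F ⟶ F)) (h0 : s 0 = 𝟙 F)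
    (hs : ∀ i j, s i ≫ s j = s (i + j)) (N : ℕ)
    (h : kernelSubobject (s N) = imageSubobject (s 1)) (w : s N ≫ s 1 = 0) :
    (ShortComplex.mk (s N) (s 1) w).Exact := by
  rw [ShortComplex.exact_iff_exact_up_to_refinements]
  intro Z k hk
  change k ≫ s 1 = 0 at hk
  have key : ∀ j ≤ N, ∃ (Z' : C) (π : Z' ⟶ Z) (_ : Epi π) (y : Z' ⟶ F), π ≫ k = y ≫ s j := by
    intro j
    induction j with
    | zero =>
      intro _
      exact ⟨Z, 𝟙 Z, inferInstance, k, by rw [h0, Category.comp_id, Category.id_comp]⟩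
    | succ j ih =>
      intro hj
      obtain ⟨Z', π, hπ, y, hy⟩ := ih (by omega)
      have h1 : y ≫ s (j + 1) = 0 := by
        rw [← hs, ← Category.assoc, ← hy, Category.assoc, hk, comp_zero]
      have h2 : y ≫ s N = 0 := by
        obtain ⟨d, rfl⟩ := Nat.exists_eq_add_of_le hj
        rw [← hs, ← Category.assoc, h1, zero_comp]
      obtain ⟨Z'', π', hπ', z, hz⟩ := exists_refinement_of_eq h y h2
      refine ⟨Z'', π' ≫ π, epi_comp _ _, z, ?_⟩
      rw [Category.assoc, hy, ← Category.assoc, hz, Category.assoc, hs, Nat.add_comm 1 j]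
  obtain ⟨Z', π, hπ, y, hy⟩ := key N le_rfl
  exact ⟨Z', π, hπ, y, hy⟩

theorem exact_of_kernel_eq_image' (s : ℕ → (F ⟶ F)) (h0 : s 0 = 𝟙 F)
    (hs : ∀ i j, s i ≫ s j = s (i + j)) (N : ℕ) (r : F ⟶ F) (hr : s 1 = r)
    (h : kernelSubobject (s N) = imageSubobject r) (w : s N ≫ r = 0) :
    (ShortComplex.mk (s N) r w).Exact := by
  subst hr
  exact exact_of_kernel_eq_image s h0 hs N h w

end Abelian

section Scheme

open Groth.Agent.FormalB.ModPow Groth.Agent.FormalB.PrincTower

/-- The powers of multiplication by a global function. -/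
theorem smulModΓ_pow_comp {X : Scheme.{u}} (M : X.Modules) (r : Coh.Γtop X) (i j : ℕ) :
    Formal.smulModΓ M (r ^ i) ≫ Formal.smulModΓ M (r ^ j) = Formal.smulModΓ M (r ^ (i + j)) := by
  rw [← smulModΓ_mul, ← pow_add, Nat.add_comm]

/-- Exactness of multiplication by `r ^ N` and `r` on a module with `r ^ (N + 1) = 0` and `ker r ^ N = im r`. -/
theorem exact_smulModΓ {X : Scheme.{u}} (M : X.Modules) (r : Coh.Γtop X) (N : ℕ)
    (h : kernelSubobject (Formal.smulModΓ M (r ^ N)) = imageSubobject (Formal.smulModΓ M r))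
    (w : Formal.smulModΓ M (r ^ N) ≫ Formal.smulModΓ M r = 0) :
    (ShortComplex.mk (Formal.smulModΓ M (r ^ N)) (Formal.smulModΓ M r) w).Exact := by
  exact exact_of_kernel_eq_image' (fun i => Formal.smulModΓ M (r ^ i))
      (by simp only [pow_zero]; exact smulModΓ_one M) (fun i j => smulModΓ_pow_comp M r i j) N _
      (by simp only [pow_one]) h w

variable {A : Type u} [CommRing A] {X : Scheme.{u}} [X.Over (Spec (CommRingCat.of A))]
  {f : A} {G : ℕᵒᵖ ⥤ X.Modules}

/-- The maps `f : G_n → G_{n+1}` are monomorphisms as soon as `G_{n+1} --f^{n+1}--> G_{n+1} --f--> G_{n+1}` is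
exact. -/
theorem mono_mu_of_exact (hG : IsFormal (Ideal.span {f}) G) (n : ℕ)
    (w : Formal.smulMod A (G.obj (op (n + 1))) (f ^ (n + 1)) ≫
      Formal.smulMod A (G.obj (op (n + 1))) f = 0)
    (h : (ShortComplex.mk _ _ w).Exact) : Mono (mu hG n) := by
  refine Preadditive.mono_of_cancel_zero _ fun {Z} k hk => ?_
  have hepi := (hG.succ n).epi
  obtain ⟨Z', π, hπ, t, ht⟩ := surjective_up_to_refinements_of_epi (tr G n) k
  have h1 : t ≫ Formal.smulMod A (G.obj (op (n + 1))) f = 0 := by
    rw [← tr_mu hG n, ← Category.assoc, ← ht, Category.assoc, hk, comp_zero]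
  obtain ⟨Z'', π', hπ', x, hx⟩ := h.exact_up_to_refinements t h1
  change π' ≫ t = x ≫ Formal.smulMod A (G.obj (op (n + 1))) (f ^ (n + 1)) at hx
  have hfn : (f ^ (n + 1)) ∈ Ideal.span {f} ^ (n + 1) :=
    Ideal.pow_mem_pow (Ideal.mem_span_singleton_self f) _
  rw [← cancel_epi π, ← cancel_epi π', comp_zero, comp_zero, ht, ← Category.assoc, hx,
    Category.assoc, (hG.succ n).smul_comp _ hfn, comp_zero]

end Scheme

end Groth.Agent.Sga2lef.H95.RegExact
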